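import Mathlib
import Cfsg.Agent.Lib.DihSyl.Basic

/-!
Subgroups with a normal Sylow `p`-subgroup and cyclic quotient.
-/

set_option autoImplicit false

namespace CfsgLib.PByCyc

open Subgroup

variable {G : Type*} [Group G] [Finite G] {p : ℕ} [Fact p.Prime]

/-- `H` has a normal Sylow `p`-subgroup with cyclic quotient -/
def PC (p : ℕ) (H : Subgroup G) : Prop :=
  (∀ S : Sylow p H, (S : Subgroup H).Normal) ∧
    ∀ (S : Sylow p H) [(S : Subgroup H).Normal], IsCyclic (H ⧸ (S : Subgroup H))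

omit [Finite G] [Fact p.Prime] in
theorem pc_sup {Q : Subgroup G} (hQ : IsPGroup p Q) {x : G} (hx : x ∈ normalizer (Q : Set G)) :
    PC p (Q ⊔ zpowers x) := by
  set H := Q ⊔ zpowers x
  have hn : (Q.subgroupOf H).Normal :=
    normal_subgroupOf_of_le_normalizer (sup_le le_normalizer (zpowers_le_of_mem hx))
  have hc : IsCyclic (H ⧸ Q.subgroupOf H) := by
    refine ⟨⟨QuotientGroup.mk ⟨x, mem_sup_right (mem_zpowers x)⟩, fun y => ?_⟩⟩
    obtain ⟨⟨y, hy⟩, rfl⟩ := QuotientGroup.mk_surjective y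
    have hy' : y ∈ ((zpowers x ⊔ Q : Subgroup G) : Set G) := by rw [sup_comm]; exact hy
    rw [coe_mul_of_left_le_normalizer_right _ _ (zpowers_le_of_mem hx)] at hy'
    obtain ⟨_, ⟨i, rfl⟩, q, hq, rfl⟩ := hy'
    refine ⟨i, ?_⟩
    show (QuotientGroup.mk _ : H ⧸ Q.subgroupOf H) ^ i = _
    rw [← QuotientGroup.mk_zpow, QuotientGroup.eq, mem_subgroupOf]
    simpa using hq
  have hle : ∀ S : Sylow p H, Q.subgroupOf H ≤ S := fun S =>
    (show IsPGroup p (Q.subgroupOf H) from hQ.comap_subtype).le_sylow_of_normal S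
  refine ⟨fun S => ?_, fun S _ => ?_⟩
  · rw [← comap_map_eq_self (f := QuotientGroup.mk' (Q.subgroupOf H)) (H := (S : Subgroup H)) (by simpa using hle S)]
    have : IsMulCommutative (H ⧸ Q.subgroupOf H) := inferInstance
    exact Normal.comap (normal_of_isMulCommutative _) _
  · exact isCyclic_of_surjective (QuotientGroup.map _ (S : Subgroup H) (MonoidHom.id H) (hle S)) fun y => by
      obtain ⟨y, rfl⟩ := QuotientGroup.mk_surjective y
      exact ⟨y, rfl⟩

theorem PC.exists {H : Subgroup G} (h : PC p H) : ∃ (S : Subgroup G) (x : G), IsPGroup p S ∧ S ≤ H ∧ x ∈ H ∧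
    (∀ g ∈ H, ∀ s ∈ S, g * s * g⁻¹ ∈ S) ∧ (orderOf x).Coprime p ∧ ∀ g ∈ H, ∃ s ∈ S, ∃ i : ℤ, g = s * x ^ i := by
  have hp : p.Prime := Fact.out
  obtain ⟨S⟩ : Nonempty (Sylow p H) := inferInstance
  have hn := h.1 S
  obtain ⟨y, hy⟩ := (h.2 S).exists_generator
  obtain ⟨y, rfl⟩ := QuotientGroup.mk_surjective y
  obtain ⟨a, m, hm, e⟩ := Nat.exists_eq_pow_mul_and_not_dvd (orderOf_pos y).ne' p hp.ne_one
  refine ⟨(S : Subgroup H).map H.subtype, (y ^ p ^ a : H), S.2.map _, map_subtype_le _, (y ^ p ^ a).2, ?_, ?_, ?_⟩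
  · rintro g hg _ ⟨s, hs, rfl⟩
    exact ⟨_, hn.conj_mem s hs ⟨g, hg⟩, rfl⟩
  · rw [orderOf_coe, orderOf_pow' _ (pow_ne_zero _ hp.ne_zero), e, Nat.gcd_mul_right_left,
      Nat.mul_div_cancel_left _ (pow_pos hp.pos _)]
    exact ((Nat.Prime.coprime_iff_not_dvd hp).2 hm).symm
  · intro g hg
    have h1 : (y : H ⧸ (S : Subgroup H)) ∈ zpowers ((y : H ⧸ (S : Subgroup H)) ^ p ^ a) :=
      mem_zpowers_pow_iff.2 (Nat.Coprime.pow_left a (((Nat.Prime.coprime_iff_not_dvd hp).2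
        S.not_dvd_index).coprime_dvd_right (orderOf_dvd_natCard _)))
    obtain ⟨i, hi⟩ := zpowers_le_of_mem h1 (hy (⟨g, hg⟩ : H))
    refine ⟨g * (((y ^ p ^ a : H) : G) ^ i)⁻¹, ⟨⟨g, hg⟩ * ((y ^ p ^ a) ^ i)⁻¹, ?_, by simp⟩, i, by group⟩
    rw [SetLike.mem_coe, ← QuotientGroup.eq_one_iff, QuotientGroup.mk_mul, QuotientGroup.mk_inv, QuotientGroup.mk_zpow,
      QuotientGroup.mk_pow, mul_inv_eq_one]
    exact hi.symm

omit [Finite G] in
theorem isCyclic_of {H : Subgroup G} {r x : G} (hr : r ∈ H) (hx : x ∈ H) (hc : r * x = x * r)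
    (hco : (orderOf x).Coprime (orderOf r)) (h : ∀ g ∈ H, ∃ s ∈ zpowers r, ∃ i : ℤ, g = s * x ^ i) : IsCyclic H := by
  have key : ∀ {a b : G}, Commute a b → (orderOf b).Coprime (orderOf a) → a ∈ zpowers (a * b) := fun {a b} hc hco => by
    have h1 : a ∈ zpowers (a ^ orderOf b) := mem_zpowers_pow_iff.2 hco
    refine zpowers_le_of_mem ?_ h1
    have := pow_mem (mem_zpowers (a * b)) (orderOf b)
    rwa [hc.mul_pow, pow_orderOf_eq_one, mul_one] at this
  have e : H = zpowers (r * x) := by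
    refine le_antisymm (fun g hg => ?_) (zpowers_le_of_mem (mul_mem hr hx))
    obtain ⟨s, hs, i, rfl⟩ := h g hg
    exact mul_mem (zpowers_le_of_mem (key hc hco) hs) (zpow_mem (hc ▸ key hc.symm hco.symm) i)
  rw [e]; infer_instance

theorem exists_gen (P : Sylow p G) (hP : IsCyclic P) {S : Subgroup G} (hS : IsPGroup p S) :
    ∃ (r : G) (n : ℕ), orderOf r = p ^ n ∧ S = zpowers r := by
  obtain ⟨g, hg⟩ := SylTools.exists_conj_le_sylow hS P
  let f : S →* P := ((MulAut.conj g).toMonoidHom.comp S.subtype).codRestrict _ fun s => hg s s.2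
  have : IsCyclic S := isCyclic_of_injective f fun a b h => by simpa [f] using h
  obtain ⟨r, hr⟩ := (Subgroup.isCyclic_iff_exists_zpowers_eq_top S).1 this
  obtain ⟨n, hn⟩ := IsPGroup.iff_card.1 hS
  exact ⟨r, n, by rw [← hn, ← hr, Nat.card_zpowers], hr.symm⟩

omit [Finite G] in
theorem comm_of_isCyclic {H : Subgroup G} (h : IsCyclic H) {a b : G} (ha : a ∈ H) (hb : b ∈ H) : a * b = b * a :=
  congrArg Subtype.val (h.isMulCommutative.is_comm.comm (⟨a, ha⟩ : H) ⟨b, hb⟩)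

end CfsgLib.PByCyc
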